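import Mathlib
import Cfsg.Agent.H208.QuadOrth
import Cfsg.Agent.AutOrth.Main
import Cfsg.Agent.H238.SolCent
import Cfsg.Agent.SolvableStructure.HallConverse
import Cfsg.Agent.LieClassical.QuadCount
import Cfsg.Agent.LieClassical.OrthCount

/-!
# Solvable centralisers of long root elements of `PΩ₇(3)`, `PΩ₈⁺(3)`, `PΩ₈⁺(2)` (helper255)
-/

set_option autoImplicit false
set_option linter.unusedSectionVars false

namespace Cfsg.Agent.H255.SC

open QuadraticMap Cfsg.Agent.LieClassical.OrthCore Cfsg.Agent.LieClassical.OrthTrans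
  Cfsg.Agent.LieClassical.OrthSimple Cfsg.Agent.ClassicalGeometry.OrthAutBasic
  Cfsg.Agent.ClassicalGeometry.OrthAutRoot Cfsg.Agent.ClassicalGeometry.OrthAutSylow

variable {F V : Type*} [Field F] [AddCommGroup V] [Module F V] {Q : QuadraticForm F V}

/-! ### averaging -/

theorem av_fix {g : V ≃ₗ[F] V} {r : ℕ} (hr : g ^ r = 1) (v : V) :
    g (∑ i ∈ Finset.range r, (g ^ i) v) = ∑ i ∈ Finset.range r, (g ^ i) v := by
  rw [map_sum]
  have h1 : ∀ i, g ((g ^ i) v) = (g ^ (i + 1)) v := fun i => by rw [pow_succ']; rfl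
  simp_rw [h1]
  have h2 := Finset.sum_range_succ (fun i => (g ^ i) v) r
  have h3 := Finset.sum_range_succ' (fun i => (g ^ i) v) r
  rw [hr] at h2
  rw [pow_zero] at h3
  exact add_right_cancel (h3.symm.trans h2)

theorem pow_fix {g : V ≃ₗ[F] V} {x : V} (hx : g x = x) (i : ℕ) : (g ^ i) x = x := by
  induction i with
  | zero => rfl
  | succ n ih =>
    rw [pow_succ']
    show g ((g ^ n) x) = x
    rw [ih, hx]

theorem exists_fix_hyp {g : V ≃ₗ[F] V} (hg : g ∈ O Q) {r : ℕ} (hr : g ^ r = 1) (hrF : (r : F) ≠ 0)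
    (hQ : Nondeg Q) {x : V} (hx : Q x = 0) (hx0 : x ≠ 0) (hgx : g x = x) : ∃ y, Hyp Q x y ∧ g y = y := by
  obtain ⟨y0, h0⟩ := exists_hyp hQ hx hx0
  set s := ∑ i ∈ Finset.range r, (g ^ i) y0 with hs
  have h1 : polar Q x s = r := by
    have e1 : polar Q x s = (polarBilin Q x) s := rfl
    have e2 : ∀ i ∈ Finset.range r, (polarBilin Q x) ((g ^ i) y0) = 1 := by
      intro i _
      show polar Q x ((g ^ i) y0) = 1
      have e3 : polar Q ((g ^ i) x) ((g ^ i) y0) = polar Q x y0 := polar_map ((O Q).pow_mem hg i) x y0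
      rw [pow_fix hgx, h0.pair] at e3
      exact e3
    rw [e1, hs, map_sum, Finset.sum_congr rfl e2]
    simp
  have hgs : g s = s := av_fix hr y0
  set a := (r : F)⁻¹ • s with ha
  have h2 : polar Q x a = 1 := by rw [ha, polar_smul_right, h1, smul_eq_mul, inv_mul_cancel₀ hrF]
  have hga : g a = a := by rw [ha, map_smul, hgs]
  refine ⟨a + (-Q a) • x, ⟨hx, ?_, ?_⟩, ?_⟩
  · generalize hc : Q a = c
    rw [Q_add, hc, QuadraticMap.map_smul, hx, polar_smul_right, polar_comm, h2]
    simp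
  · rw [polar_add_right, h2, polar_smul_right, polar_self_of_sing hx]
    simp
  · rw [map_add, hga, map_smul, hgx]

/-! ### restriction to the complement of a hyperbolic pair -/

theorem proj_add {x y : V} (v : V) : proj Q x y v + polar Q y v • x + polar Q x v • y = v := by
  unfold LieClassical.OrthTrans.proj
  abel

theorem exists_restrict {g : V ≃ₗ[F] V} (hg : g ∈ O Q) {x y : V} (h : Hyp Q x y) (hx : g x = x) (hy : g y = y) :
    ∃ g' : perp2 Q x y ≃ₗ[F] perp2 Q x y, g' ∈ O (resQ Q x y) ∧ (∀ w, (g' w : V) = g w) ∧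
      (g' = 1 → g = 1) := by
  have hmem : ∀ w, w ∈ perp2 Q x y → g w ∈ perp2 Q x y := by
    intro w hw
    rw [mem_perp2] at hw ⊢
    refine ⟨?_, ?_⟩
    · have := polar_map hg x w
      rw [hx] at this
      rw [this, hw.1]
    · have := polar_map hg y w
      rw [hy] at this
      rw [this, hw.2]
  have hgi : g⁻¹ ∈ O Q := (O Q).inv_mem hg
  have hxi : g⁻¹ x = x := by
    have : g.symm x = x := by rw [LinearEquiv.symm_apply_eq, hx]
    exact this
  have hyi : g⁻¹ y = y := by
    have : g.symm y = y := by rw [LinearEquiv.symm_apply_eq, hy]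
    exact this
  have hmemi : ∀ w, w ∈ perp2 Q x y → g⁻¹ w ∈ perp2 Q x y := by
    intro w hw
    rw [mem_perp2] at hw ⊢
    refine ⟨?_, ?_⟩
    · have := polar_map hgi x w
      rw [hxi] at this
      rw [this, hw.1]
    · have := polar_map hgi y w
      rw [hyi] at this
      rw [this, hw.2]
  let g' : perp2 Q x y ≃ₗ[F] perp2 Q x y :=
    { toFun := fun w => ⟨g w, hmem w w.2⟩
      map_add' := fun a b => Subtype.ext (map_add g _ _)
      map_smul' := fun c a => Subtype.ext (map_smul g _ _)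
      invFun := fun w => ⟨g⁻¹ w, hmemi w w.2⟩
      left_inv := fun a => Subtype.ext (g.symm_apply_apply _)
      right_inv := fun a => Subtype.ext (g.apply_symm_apply _) }
  have hg' : ∀ w, (g' w : V) = g w := fun w => rfl
  refine ⟨g', ?_, hg', ?_⟩
  · intro w
    rw [resQ_apply, resQ_apply, hg']
    exact mem_O.1 hg _
  · intro e
    ext v
    show g v = v
    have h1 : g (proj Q x y v) = proj Q x y v := by
      have h2 := hg' ⟨proj Q x y v, proj_mem h v⟩
      rw [e] at h2
      exact h2.symm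
    conv_lhs => rw [← proj_add (Q := Q) (x := x) (y := y) v]
    rw [map_add, map_add, map_smul, map_smul, h1, hx, hy, proj_add]

theorem pow_restrict {x y : V} {g : V ≃ₗ[F] V} {g' : perp2 Q x y ≃ₗ[F] perp2 Q x y} (h : ∀ w, (g' w : V) = g w) {r : ℕ}
    (hr : g ^ r = 1) : g' ^ r = 1 := by
  have h1 : ∀ (n : ℕ) (w : perp2 Q x y), ((g' ^ n) w : V) = (g ^ n) w := by
    intro n
    induction n with
    | zero => intro w; rfl
    | succ n ih =>
      intro w
      rw [pow_succ', pow_succ']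
      show (g' ((g' ^ n) w) : V) = g ((g ^ n) w)
      rw [h, ih]
  ext w
  rw [h1, hr]
  rfl

theorem nondeg_res (hQ : Nondeg Q) {x y : V} (h : Hyp Q x y) : Nondeg (resQ Q x y) := by
  rintro ⟨w, hw⟩ hw'
  have hw2 := mem_perp2.1 hw
  apply Subtype.ext
  apply hQ
  intro v
  have := hw' ⟨proj Q x y v, proj_mem h v⟩
  rw [polar_resQ] at this
  rw [← this]
  exact (polar_proj_of_perp hw2.1 hw2.2 v).symm

/-! ### counting -/

theorem Q_decomp {x y : V} (h : Hyp Q x y) {w : V} (hx : polar Q x w = 0) (hy : polar Q y w = 0) (a b : F) :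
    Q (w + a • x + b • y) = Q w + a * b := by
  rw [Q_add, Q_add, QuadraticMap.map_smul, QuadraticMap.map_smul, h.left, h.right, polar_smul_right,
    polar_smul_right, polar_add_left, polar_smul_left, h.pair, polar_comm Q w x, polar_comm Q w y, hx, hy]
  simp [mul_comm]

/-- `V` is the sum of the hyperbolic plane and its complement -/
noncomputable def decomp {x y : V} (h : Hyp Q x y) : V ≃ (Fin 1 ⊕ Fin 1 → F) × perp2 Q x y where
  toFun v := (Sum.elim (fun _ => polar Q y v) (fun _ => polar Q x v), ⟨proj Q x y v, proj_mem h v⟩)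
  invFun p := (p.2 : V) + p.1 (Sum.inl 0) • x + p.1 (Sum.inr 0) • y
  left_inv v := proj_add v
  right_inv p := by
    obtain ⟨f, w, hw⟩ := p
    have hw2 := mem_perp2.1 hw
    have e1 : polar Q y (w + f (Sum.inl 0) • x + f (Sum.inr 0) • y) = f (Sum.inl 0) := by
      simp [polar_add_right, polar_smul_right, hw2.2, h.pair', h.polar_right]
    have e2 : polar Q x (w + f (Sum.inl 0) • x + f (Sum.inr 0) • y) = f (Sum.inr 0) := by
      simp [polar_add_right, polar_smul_right, hw2.1, h.pair, h.polar_left]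
    refine Prod.ext ?_ ?_
    · funext i
      rcases i with i | i
      · have : i = 0 := Subsingleton.elim _ _
        subst this
        exact e1
      · have : i = 0 := Subsingleton.elim _ _
        subst this
        exact e2
    · apply Subtype.ext
      show proj Q x y (w + f (Sum.inl 0) • x + f (Sum.inr 0) • y) = w
      unfold LieClassical.OrthTrans.proj
      rw [e1, e2]
      abel

theorem card_perp2 {x y : V} (h : Hyp Q x y) : Nat.card V = Nat.card F ^ 2 * Nat.card (perp2 Q x y) := by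
  rw [Nat.card_congr (decomp h), Nat.card_prod, Nat.card_fun]
  simp

theorem card_sing [Finite F] [Finite V] {x y : V} (h : Hyp Q x y) :
    Nat.card {v : V // Q v = 0} + Nat.card (perp2 Q x y) =
      Nat.card F * (Nat.card (perp2 Q x y) + Nat.card {w : perp2 Q x y // resQ Q x y w = 0}) := by
  classical
  have := Fintype.ofFinite F
  have := Fintype.ofFinite (perp2 Q x y)
  have h1 := Cfsg.Agent.LieClassical.QuadCount.card_sum (F := F) (W := perp2 Q x y) 1 (fun w => resQ Q x y w)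
  have h2 : Nat.card {p : (Fin 1 ⊕ Fin 1 → F) × perp2 Q x y // Cfsg.quadFormPlus 1 F p.1 + resQ Q x y p.2 = 0} =
      Nat.card {v : V // Q v = 0} := by
    refine (Nat.card_congr (Equiv.subtypeEquiv (decomp h) ?_)).symm
    intro v
    have e1 : Q v = Q (proj Q x y v) + polar Q y v * polar Q x v := by
      conv_lhs => rw [← proj_add (Q := Q) (x := x) (y := y) v]
      exact Q_decomp h (polar_proj_left h v) (polar_proj_right h v) _ _
    have e2 : Cfsg.quadFormPlus 1 F (decomp h v).1 = polar Q y v * polar Q x v := by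
      show ∑ i : Fin 1, _ = _
      rw [Fin.sum_univ_one]
      rfl
    rw [e1, e2, add_comm]
    rfl
  rw [h2, ← Nat.card_eq_fintype_card (α := F), ← Nat.card_eq_fintype_card (α := perp2 Q x y)] at h1
  have hq : 0 < Nat.card F := Nat.card_pos
  apply Nat.eq_of_mul_eq_mul_left hq
  rw [mul_add, mul_add, mul_add]
  simp only [mul_one, pow_one] at h1
  linear_combination h1

/-! ### fixed vectors -/

/-- an element of prime order fixes a nonzero singular vector if their number is not divisible by `r` -/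
theorem exists_fix_sing [Finite V] {g : V ≃ₗ[F] V} (hg : g ∈ O Q) {r : ℕ} [Fact r.Prime] (hr : g ^ r = 1)
    (hn : ∀ n, Nat.card {v : V // Q v = 0} = n + 1 → ¬ r ∣ n) : ∃ x, Q x = 0 ∧ x ≠ 0 ∧ g x = x := by
  classical
  have := Fintype.ofFinite V
  have hmem : ∀ v : V, (Q v = 0 ∧ v ≠ 0) ↔ (Q (g v) = 0 ∧ g v ≠ 0) := by
    intro v
    rw [mem_O.1 hg, ne_eq, ne_eq, LinearEquiv.map_eq_zero_iff]
  let σ : Equiv.Perm {v : V // Q v = 0 ∧ v ≠ 0} := Equiv.Perm.subtypePerm (g.toEquiv : Equiv.Perm V) (fun v => (hmem v).symm)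
  have hσ : ∀ (n : ℕ) (v : {v : V // Q v = 0 ∧ v ≠ 0}), ((σ ^ n) v : V) = (g ^ n) v := by
    intro n
    induction n with
    | zero => intro v; rfl
    | succ n ih =>
      intro v
      rw [pow_succ', pow_succ']
      show g (((σ ^ n) v : _) : V) = g ((g ^ n) v)
      rw [ih]
  have h1 : σ ^ r ^ 1 = 1 := by
    rw [pow_one]
    ext v
    rw [hσ, hr]
    rfl
  have h0 : Nat.card {v : V // Q v = 0} = Nat.card {v : V // Q v = 0 ∧ v ≠ 0} + 1 := by
    have h1 := Set.ncard_sdiff_singleton_add_one (s := {v : V | Q v = 0}) (a := 0)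
      (QuadraticMap.map_zero _)
    exact h1.symm
  have h2 := hn _ h0
  rw [Nat.card_eq_fintype_card] at h2
  obtain ⟨a, ha⟩ := Equiv.Perm.exists_fixed_point_of_prime h2 h1
  exact ⟨a, a.2.1, a.2.2, congrArg Subtype.val ha⟩

/-- an element of prime order not dividing `|GL_d(q)|` is trivial on a space of dimension `d` -/
theorem eq_one_of_card {W : Type*} [AddCommGroup W] [Module F W] [FiniteDimensional F W] [Finite F] {g : W ≃ₗ[F] W} {r : ℕ} [Fact r.Prime] (hr : g ^ r = 1) {d : ℕ} (hd : Nat.card W = Nat.card F ^ d)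
    (hn : ¬ r ∣ Nat.card (GL (Fin d) F)) : g = 1 := by
  have hfin : Finite W := Module.finite_of_finite F
  have hd' : Module.finrank F W = d := by
    have h1 := Module.natCard_eq_pow_finrank (K := F) (V := W)
    rw [hd] at h1
    exact (Nat.pow_right_injective (Finite.one_lt_card (α := F)) h1).symm
  let b := (Module.finBasisOfFinrankEq F W hd').equivFun
  let e : (W ≃ₗ[F] W) ≃* ((Fin d → F) ≃ₗ[F] (Fin d → F)) :=
    { toFun := fun h => (b.symm.trans h).trans b
      invFun := fun h => (b.trans h).trans b.symm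
      left_inv := fun h => by ext v; simp
      right_inv := fun h => by ext v; simp
      map_mul' := fun h k => by ext v; simp }
  have h1 := (Cfsg.Agent.LieClassical.OrthCount.glEquiv (Fin d) F).symm
  have h2 : (h1 (e g)) ^ r = 1 := by rw [← map_pow, ← map_pow, hr, map_one, map_one]
  have h3 : h1 (e g) = 1 := by
    by_contra hne
    have h4 := orderOf_eq_prime h2 hne
    exact hn (h4 ▸ orderOf_dvd_natCard (h1 (e g)))
  rw [map_eq_one_iff _ h1.injective, map_eq_one_iff _ e.injective] at h3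
  exact h3

/-- fixed vector in a hyperbolic complement -/
theorem descend (hQ : Nondeg Q) {g : V ≃ₗ[F] V} (hg : g ∈ O Q) {r : ℕ} (hr : g ^ r = 1) (hrF : (r : F) ≠ 0) {x : V}
    (hx : Q x = 0) (hx0 : x ≠ 0) (hgx : g x = x) :
    ∃ y, Hyp Q x y ∧ g y = y ∧ ∃ g' : perp2 Q x y ≃ₗ[F] perp2 Q x y, g' ∈ O (resQ Q x y) ∧
      (∀ w, (g' w : V) = g w) ∧ g' ^ r = 1 ∧ (g' = 1 → g = 1) := by
  obtain ⟨y, hy, hgy⟩ := exists_fix_hyp hg hr hrF hQ hx hx0 hgx
  obtain ⟨g', h1, h2, h3⟩ := exists_restrict hg hy hgx hgy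
  exact ⟨y, hy, hgy, g', h1, h2, pow_restrict h2 hr, h3⟩

/-- **an isometry of prime order `r ≥ 5` fixing a totally singular line vectorwise is trivial** (numerical form) -/
theorem eq_one_of_fix_line [Finite F] [FiniteDimensional F V] (hQ : Nondeg Q) {g : V ≃ₗ[F] V} (hg : g ∈ O Q) {r : ℕ} [Fact r.Prime]
    (hr : g ^ r = 1) (hrF : (r : F) ≠ 0) {x u : V} (h : Ln Q x u) (hgx : g x = x) (hgu : g u = u)
    {m : ℕ} (hV : Nat.card V = Nat.card F ^ (m + 6))
    (hn : ∀ z z1 z2, Nat.card {v : V // Q v = 0} = z →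
      z + Nat.card F ^ (m + 4) = Nat.card F * (Nat.card F ^ (m + 4) + z1) →
      z1 + Nat.card F ^ (m + 2) = Nat.card F * (Nat.card F ^ (m + 2) + (z2 + 1)) → ¬ r ∣ z2)
    (hGL : ¬ r ∣ Nat.card (GL (Fin m) F)) : g = 1 := by
  have hfin : Finite V := Module.finite_of_finite F
  obtain ⟨y, hxy, hgy, g1, hg1, h1g, hr1, hd1⟩ := descend hQ hg hr hrF h.qu h.ne hgx
  apply hd1
  have hQ1 := nondeg_res hQ hxy
  have hF0 : 0 < Nat.card F ^ 2 := by have : 0 < Nat.card F := Nat.card_pos; positivity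
  -- the vector of the complement
  have hu' : LieClassical.OrthTrans.proj Q x y u = u - polar Q y u • x := by
    unfold LieClassical.OrthTrans.proj
    rw [h.perp, zero_smul, sub_zero]
  let u1 : perp2 Q x y := ⟨LieClassical.OrthTrans.proj Q x y u, proj_mem hxy u⟩
  have hu1 : (u1 : V) = u + (-polar Q y u) • x := by
    show LieClassical.OrthTrans.proj Q x y u = _
    rw [hu', neg_smul, sub_eq_add_neg]
  have hqu1 : resQ Q x y u1 = 0 := by
    rw [resQ_apply, hu1, Q_add, h.qw, QuadraticMap.map_smul, h.qu, polar_smul_right, h.perp']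
    simp
  have hu10 : u1 ≠ 0 := by
    intro e
    have e1 : (u1 : V) = 0 := by rw [e]; rfl
    apply h.ind (polar Q y u)
    have e2 : u - polar Q y u • x = 0 := by rw [← hu']; exact e1
    exact sub_eq_zero.1 e2
  have hgu1 : g1 u1 = u1 := by
    apply Subtype.ext
    rw [h1g, hu1, map_add, map_smul, hgu, hgx]
  obtain ⟨v1, huv, hgv, g2, hg2, h2g, hr2, hd2⟩ := descend hQ1 hg1 hr1 hrF hqu1 hu10 hgu1
  apply hd2
  have hQ2 := nondeg_res hQ1 huv
  have hV1 : Nat.card (perp2 Q x y) = Nat.card F ^ (m + 4) := by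
    have e1 := card_perp2 hxy
    rw [hV] at e1
    apply Nat.eq_of_mul_eq_mul_left hF0
    rw [← e1]
    ring
  have hV2 : Nat.card (perp2 (resQ Q x y) u1 v1) = Nat.card F ^ (m + 2) := by
    have e1 := card_perp2 huv
    rw [hV1] at e1
    apply Nat.eq_of_mul_eq_mul_left hF0
    rw [← e1]
    ring
  obtain ⟨x2, hx2, hx20, hgx2⟩ := exists_fix_sing hg2 hr2 (by
    intro n hn'
    have e1 := card_sing hxy
    have e2 := card_sing huv
    rw [hV1] at e1
    rw [hV2, hn'] at e2
    exact hn _ _ _ rfl e1 e2)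
  obtain ⟨y2, hxy2, hgy2, g3, hg3, h3g, hr3, hd3⟩ := descend hQ2 hg2 hr2 hrF hx2 hx20 hgx2
  apply hd3
  have hV3 : Nat.card (perp2 (resQ (resQ Q x y) u1 v1) x2 y2) = Nat.card F ^ m := by
    have e1 := card_perp2 hxy2
    rw [hV2] at e1
    apply Nat.eq_of_mul_eq_mul_left hF0
    rw [← e1]
    ring
  exact eq_one_of_card hr3 hV3 hGL

theorem card_L {x u : V} (h : Ln Q x u) : Nat.card (L F x u) = Nat.card F ^ 2 := by
  have h1 : Nat.card (L F x u) = Nat.card (F × F) := by
    refine (Nat.card_congr (Equiv.ofBijective (fun p : F × F => (⟨p.1 • x + p.2 • u, mem_L.2 ⟨_, _, rfl⟩⟩ : L F x u)) ⟨?_, ?_⟩)).symm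
    · rintro ⟨a, b⟩ ⟨a', b'⟩ e
      have e1 : a • x + b • u = a' • x + b' • u := congrArg Subtype.val e
      have e2 : (a - a') • x + (b - b') • u = 0 := by
        rw [sub_smul, sub_smul]
        have : a • x - a' • x + (b • u - b' • u) = (a • x + b • u) - (a' • x + b' • u) := by abel
        rw [this, e1, sub_self]
      obtain ⟨e3, e4⟩ := h.coeff e2
      rw [sub_eq_zero.1 e3, sub_eq_zero.1 e4]
    · rintro ⟨v, hv⟩
      obtain ⟨a, b, e⟩ := mem_L.1 hv
      exact ⟨(a, b), Subtype.ext e⟩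
  rw [h1, Nat.card_prod, pow_two]

/-- restriction to an invariant subspace -/
theorem exists_res_sub {g : V ≃ₗ[F] V} {S : Submodule F V} [Finite S] (hS : ∀ s ∈ S, g s ∈ S) {r : ℕ} (hr : g ^ r = 1) :
    ∃ g' : S ≃ₗ[F] S, (∀ s, (g' s : V) = g s) ∧ g' ^ r = 1 := by
  let f : S →ₗ[F] S := g.toLinearMap.restrict hS
  have hinj : Function.Injective f := by
    intro a b hab
    apply Subtype.ext
    exact g.injective (congrArg Subtype.val hab)
  let g' : S ≃ₗ[F] S := LinearEquiv.ofBijective f ⟨hinj, Finite.surjective_of_injective hinj⟩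
  have hg' : ∀ s, (g' s : V) = g s := fun s => rfl
  refine ⟨g', hg', ?_⟩
  have h1 : ∀ (n : ℕ) (w : S), ((g' ^ n) w : V) = (g ^ n) w := by
    intro n
    induction n with
    | zero => intro w; rfl
    | succ n ih =>
      intro w
      rw [pow_succ', pow_succ']
      show (g' ((g' ^ n) w) : V) = g ((g ^ n) w)
      rw [hg', ih]
  ext w
  rw [h1, hr]
  rfl

/-- the numerical hypotheses for the prime `r` -/
structure Num (F : Type*) {V : Type*} [Field F] [AddCommGroup V] [Module F V] (Q : QuadraticForm F V) (m r : ℕ) : Prop where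
  ne : (r : F) ≠ 0
  card : Nat.card V = Nat.card F ^ (m + 6)
  sing : ∀ z z1 z2, Nat.card {v : V // Q v = 0} = z →
      z + Nat.card F ^ (m + 4) = Nat.card F * (Nat.card F ^ (m + 4) + z1) →
      z1 + Nat.card F ^ (m + 2) = Nat.card F * (Nat.card F ^ (m + 2) + (z2 + 1)) → ¬ r ∣ z2
  gl : ¬ r ∣ Nat.card (GL (Fin m) F)
  gl2 : ¬ r ∣ Nat.card (GL (Fin 2) F)

/-- no element of prime order `r ≥ 5` commutes with a long root element -/
theorem no_elt [Finite F] (hB : Big Q) {x u : V} (h : Ln Q x u) {c : F} (hc : c ≠ 0) {γ : PE Q}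
    (hcom : γ * tau Q x (c • u) = tau Q x (c • u) * γ) {m r : ℕ} [Fact r.Prime] (hr5 : 5 ≤ r) (hγ : orderOf γ = r)
    (hN : Num F Q m r) : False := by
  have hfd : FiniteDimensional F V := Module.finite_of_finrank_pos (by have := hB.dim; omega)
  have hfin : Finite V := Module.finite_of_finite F
  have hG := hB.good
  obtain ⟨g0, hg0, rfl⟩ := pr_surj γ
  have hr1 : (pr g0 hg0) ^ r = 1 := by rw [← hγ]; exact pow_orderOf_eq_one _
  have hpow : ∀ n : ℕ, (pr g0 hg0) ^ n = pr (g0 ^ n) ((E Q).pow_mem hg0 n) := by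
    intro n
    induction n with
    | zero => rfl
    | succ n ih =>
      rw [pow_succ, ih, ← pr_mul]
      exact pr_congr _ (pow_succ g0 n).symm
  have h1 : pr (g0 ^ r) ((E Q).pow_mem hg0 r) = pr 1 (Subgroup.one_mem _) := by
    rw [← hpow, hr1]
    rfl
  obtain ⟨d, hd, hdv⟩ := (pr_eq_iff hB _ _).1 h1
  have hdd : d * d = 1 := by rcases hd with rfl | rfl <;> ring
  set g := g0 ^ 2 with hg
  have hgE : g ∈ E Q := (E Q).pow_mem hg0 2
  have hgr : g ^ r = 1 := by
    rw [hg, ← pow_mul, mul_comm, pow_mul]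
    ext v
    have e1 : ((g0 ^ r) ^ 2) v = (g0 ^ r) ((g0 ^ r) v) := by rw [pow_two]; rfl
    rw [e1, hdv, hdv]
    show d • d • v = v
    rw [smul_smul, hdd, one_smul]
  have hprg : pr g hgE = (pr g0 hg0) ^ 2 := (hpow 2).symm
  have hcg : pr g hgE * tau Q x (c • u) = tau Q x (c • u) * pr g hgE := by
    rw [hprg]
    exact (Commute.pow_left hcom 2)
  have hT := T_eq_of_comm hB hgE hcg
  have hl : Ln Q x (c • u) := h.smul_right hc
  have hgO : g ∈ O Q := E_le_O hgE
  have hL : L F (g x) (g (c • u)) = L F x (c • u) := by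
    rw [← D_T hB.nondeg (hl.map hgO), hT, D_T hB.nondeg hl]
  have hS : ∀ s ∈ L F x (c • u), g s ∈ L F x (c • u) := by
    intro s hs
    obtain ⟨a, b, rfl⟩ := mem_L.1 hs
    rw [← hL]
    exact mem_L.2 ⟨a, b, by rw [map_add, map_smul g a, map_smul g b]⟩
  obtain ⟨g', hg', hg'r⟩ := exists_res_sub hS hgr
  have h2 : g' = 1 := eq_one_of_card hg'r (card_L hl) hN.gl2
  have hgx : g x = x := by
    have := hg' ⟨x, left_mem_L _ _⟩
    rw [h2] at this
    exact this.symm
  have hgu : g (c • u) = c • u := by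
    have := hg' ⟨c • u, right_mem_L _ _⟩
    rw [h2] at this
    exact this.symm
  have h3 : g = 1 := eq_one_of_fix_line hB.nondeg hgO hgr hN.ne hl hgx hgu hN.card hN.sing hN.gl
  have h4 : (pr g0 hg0) ^ 2 = 1 := by
    rw [← hprg, pr_congr hgE h3]
    rfl
  have h5 := Nat.le_of_dvd (by norm_num) (orderOf_dvd_of_pow_eq_one h4)
  omega

theorem sc_pe [Finite F] (hB : Big Q) {p : ℕ} [Fact p.Prime] [CharP F p] {m : ℕ}
    (hN : ∀ r, r.Prime → 5 ≤ r → Num F Q m r) : Cfsg.Agent.H238.SolCent.SC p (PE Q) := by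
  have hfd : FiniteDimensional F V := Module.finite_of_finrank_pos (by have := hB.dim; omega)
  have hfin : Finite V := Module.finite_of_finite F
  have hfinE : Finite (V ≃ₗ[F] V) := Finite.of_injective (fun g => (g : V → V))
    DFunLike.coe_injective
  obtain ⟨x, y, hxy⟩ := hB.good.exists_hyp
  obtain ⟨u, v, huv, hxu, hxv, hyu, hyv⟩ := hB.good.exists_hyp2 hxy
  have h : Ln Q x u := ⟨hxy.left, huv.left, hxu, hxy.left_ne, by
    intro c hc
    have e1 := huv.pair
    rw [hc, polar_smul_left, hxv, smul_zero] at e1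
    exact zero_ne_one e1⟩
  obtain ⟨P1, hP1⟩ := Cfsg.Agent.H208.QuadOrth.exists_center hB h p
  refine Cfsg.Agent.H238.SolCent.SC.of_one P1 ?_
  intro z hz hzc
  have hzp : z ^ p = 1 := by rw [← hz]; exact pow_orderOf_eq_one z
  have hz1 : z ≠ 1 := by
    intro e
    rw [e, orderOf_one] at hz
    exact (Fact.out : p.Prime).one_lt.ne hz
  obtain ⟨c, rfl⟩ := hP1 z (Cfsg.Agent.H208.QuadBase.mem_sylow P1 hzp hzc) (fun δ hδ => (hzc δ hδ).symm)
  have hc : c ≠ 0 := by
    rintro rfl
    apply hz1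
    rw [zero_smul, tau_zero_right]
  apply Cfsg.Agent.SolvableStructure.HallConverse.isSolvable_of_no_three_primes
  have hsub : (Nat.card ↥(Subgroup.centralizer ({tau Q x (c • u)} : Set (PE Q)))).primeFactors ⊆ {2, 3} := by
    intro r hr
    have hrp := Nat.prime_of_mem_primeFactors hr
    have : Fact r.Prime := ⟨hrp⟩
    obtain ⟨γ, hγ⟩ := exists_prime_orderOf_dvd_card' r (Nat.dvd_of_mem_primeFactors hr)
    by_contra hne
    have hr5 : 5 ≤ r := by
      have h2 := hrp.two_le
      have h4 : r ≠ 4 := by rintro rfl; exact absurd hrp (by norm_num)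
      simp only [Finset.mem_insert, Finset.mem_singleton, not_or] at hne
      omega
    have hγ' : orderOf (γ : PE Q) = r := by rw [← hγ, Subgroup.orderOf_coe]
    exact no_elt hB h hc (Subgroup.mem_centralizer_singleton_iff.1 γ.2) hr5 hγ' (hN r hrp hr5)
  exact (Finset.card_le_card hsub).trans (by simp)

/-! ### the three groups -/

open Cfsg.Agent.LieClassical.QuadForms (oddForm plusForm coe_oddForm coe_plusForm)
open Cfsg.Agent.AutOrth.Main (pe good_odd good_plus)

theorem gl_two_three {F : Type*} [Field F] [Finite F] (hF : Nat.card F = 3) {r : ℕ} (hr : r.Prime) (h5 : 5 ≤ r) :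
    ¬ r ∣ Nat.card (GL (Fin 2) F) := by
  classical
  have := Fintype.ofFinite F
  rw [Nat.card_eq_fintype_card] at hF
  rw [Matrix.card_GL_field, Fin.prod_univ_two, hF]
  norm_num
  intro h
  have h1 : r ∣ 2 ^ 4 * 3 := h
  rcases hr.dvd_mul.1 h1 with h2 | h2
  · have := (Nat.prime_dvd_prime_iff_eq hr Nat.prime_two).1 (hr.dvd_of_dvd_pow h2)
    omega
  · have := (Nat.prime_dvd_prime_iff_eq hr Nat.prime_three).1 h2
    omega

theorem gl_two_two {F : Type*} [Field F] [Finite F] (hF : Nat.card F = 2) {r : ℕ} (hr : r.Prime) (h5 : 5 ≤ r) :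
    ¬ r ∣ Nat.card (GL (Fin 2) F) := by
  classical
  have := Fintype.ofFinite F
  rw [Nat.card_eq_fintype_card] at hF
  rw [Matrix.card_GL_field, Fin.prod_univ_two, hF]
  norm_num
  intro h
  have h1 : r ∣ 2 * 3 := h
  rcases hr.dvd_mul.1 h1 with h2 | h2
  · have := (Nat.prime_dvd_prime_iff_eq hr Nat.prime_two).1 h2
    omega
  · have := (Nat.prime_dvd_prime_iff_eq hr Nat.prime_three).1 h2
    omega

theorem gl_one_three {F : Type*} [Field F] [Finite F] (hF : Nat.card F = 3) {r : ℕ} (hr : r.Prime) (h5 : 5 ≤ r) :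
    ¬ r ∣ Nat.card (GL (Fin 1) F) := by
  classical
  have := Fintype.ofFinite F
  rw [Nat.card_eq_fintype_card] at hF
  rw [Matrix.card_GL_field, Fin.prod_univ_one, hF]
  norm_num
  intro h
  have := Nat.le_of_dvd (by norm_num) h
  omega

theorem cast_ne {F : Type*} [Field F] [Finite F] {p r : ℕ} [CharP F p] (hp : p.Prime) (hp3 : p ≤ 3) (hr : r.Prime)
    (h5 : 5 ≤ r) : (r : F) ≠ 0 := by
  intro h
  have h1 := (CharP.cast_eq_zero_iff F p r).1 h
  have := (Nat.prime_dvd_prime_iff_eq hp hr).1 h1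
  omega

theorem charP_of_card {F : Type*} [Field F] [Finite F] {p : ℕ} (hp : p.Prime) (hF : Nat.card F = p) : CharP F p := by
  have := Fintype.ofFinite F
  obtain ⟨q, hq⟩ := CharP.exists F
  have : Fact p.Prime := ⟨hp⟩
  have hqp : q.Prime := (CharP.char_is_prime_or_zero F q).resolve_right (CharP.char_ne_zero_of_finite F q)
  obtain ⟨n, h1, h2⟩ := FiniteField.card F q
  rw [← Nat.card_eq_fintype_card, hF] at h2
  have h3 : q ∣ p := by
    rw [h2]
    exact dvd_pow_self q n.2.ne'
  rw [(Nat.prime_dvd_prime_iff_eq hqp hp).1 h3] at hq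
  exact hq

theorem not_dvd_pow {r a b : ℕ} (hr : r.Prime) (h5 : 5 ≤ r) (hb : b = 2 ∨ b = 3) : ¬ r ∣ b ^ a := by
  intro h
  have h1 := Nat.le_of_dvd (by rcases hb with rfl | rfl <;> norm_num) (hr.dvd_of_dvd_pow h)
  rcases hb with rfl | rfl <;> omega

theorem sc_POmega {F : Type*} [Field F] [Finite F] {p : ℕ} [Fact p.Prime] [CharP F p] {ι : Type} [Fintype ι] [DecidableEq ι]
    {Q : QuadraticForm F (ι → F)} (hG : Good Q) (h7 : 7 ≤ Module.finrank F (ι → F)) {m : ℕ}
    (hN : ∀ r, r.Prime → 5 ≤ r → Num F Q m r) : Cfsg.Agent.H238.SolCent.SC p (Cfsg.POmega F ⇑Q) := by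
  have hB : Big Q := ⟨hG.nondeg, h7⟩
  have hfin : Finite (ι → F) := inferInstance
  have hfinE : Finite ((ι → F) ≃ₗ[F] (ι → F)) := Finite.of_injective (fun g => (g : (ι → F) → (ι → F)))
    DFunLike.coe_injective
  exact (sc_pe hB (p := p) hN).congr (pe hG).symm

/-- `PΩ₇(3)` -/
theorem sc_o73 {F : Type} [Field F] [Fintype F] (hF : Fintype.card F = 3) :
    Cfsg.Agent.H238.SolCent.SC 3 (Cfsg.POmega F (Cfsg.quadFormOdd 3 F)) := by
  classical
  have hF' : Nat.card F = 3 := by rw [Nat.card_eq_fintype_card, hF]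
  have : Fact (Nat.Prime 3) := ⟨Nat.prime_three⟩
  have : CharP F 3 := charP_of_card Nat.prime_three hF'
  have h2 : (2 : F) ≠ 0 := by
    intro h
    have h1 := (CharP.cast_eq_zero_iff F 3 2).1 (by exact_mod_cast h)
    revert h1
    decide
  rw [← coe_oddForm]
  refine sc_POmega (good_odd (by omega) h2) (by simp) (m := 1) ?_
  intro r hr h5
  refine ⟨cast_ne Nat.prime_three le_rfl hr h5, ?_, ?_, gl_one_three hF' hr h5, gl_two_three hF' hr h5⟩
  · rw [Nat.card_fun]
    simp
  · intro z z1 z2 hz h1 h2'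
    have h3 := Cfsg.Agent.LieClassical.QuadCount.card_sum (F := F) (W := Unit → F) 3 (fun w => w () ^ 2)
    have h4 : Nat.card {p : (Fin 3 ⊕ Fin 3 → F) × (Unit → F) // Cfsg.quadFormPlus 3 F p.1 + p.2 () ^ 2 = 0} = z := by
      rw [← hz]
      refine (Nat.card_congr (Equiv.subtypeEquiv
        ((Equiv.sumArrowEquivProdArrow Unit (Fin 3 ⊕ Fin 3) F).trans (Equiv.prodComm _ _)) ?_)).symm
      intro v
      have e1 : (oddForm 3 F) v = v (Sum.inl ()) ^ 2 + ∑ i : Fin 3, v (.inr (.inl i)) * v (.inr (.inr i)) :=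
        congrFun (coe_oddForm (F := F) 3) v
      rw [e1, add_comm]
      exact Iff.rfl
    have h5' : Nat.card {w : Unit → F // w () ^ 2 = 0} = 1 := by
      have : Unique {w : Unit → F // w () ^ 2 = 0} :=
        { default := ⟨0, by simp⟩
          uniq := fun w => by
            apply Subtype.ext
            funext i
            have := w.2
            have h0 : w.1 () = 0 := by simpa using this
            exact h0 }
      exact Nat.card_unique
    have h6 : Fintype.card (Unit → F) = 3 := by simp [hF]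
    rw [h4, h5', h6, hF] at h3
    rw [hF'] at h1 h2'
    norm_num at h1 h2' h3
    have h7 : z2 = 2 ^ 3 := by omega
    rw [h7]
    exact not_dvd_pow hr h5 (Or.inl rfl)

/-- `PΩ₈⁺(3)` -/
theorem sc_o83 {F : Type} [Field F] [Fintype F] (hF : Fintype.card F = 3) :
    Cfsg.Agent.H238.SolCent.SC 3 (Cfsg.POmega F (Cfsg.quadFormPlus 4 F)) := by
  classical
  have hF' : Nat.card F = 3 := by rw [Nat.card_eq_fintype_card, hF]
  have : Fact (Nat.Prime 3) := ⟨Nat.prime_three⟩
  have : CharP F 3 := charP_of_card Nat.prime_three hF'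
  rw [← coe_plusForm]
  refine sc_POmega (good_plus (by omega)) (by simp) (m := 2) ?_
  intro r hr h5
  refine ⟨cast_ne Nat.prime_three le_rfl hr h5, ?_, ?_, gl_two_three hF' hr h5, gl_two_three hF' hr h5⟩
  · rw [Nat.card_fun]
    simp
  · intro z z1 z2 hz h1 h2'
    have h3 := Cfsg.Agent.LieClassical.QuadCount.card_plus (F := F) 4 0
    have h4 : Nat.card {v : Fin 4 ⊕ Fin 4 → F // Cfsg.quadFormPlus 4 F v = 0} = z := by
      rw [← hz, ← coe_plusForm]
    rw [h4, if_pos rfl, hF] at h3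
    rw [hF'] at h1 h2'
    norm_num at h1 h2' h3
    have h7 : z2 = 2 ^ 5 := by omega
    rw [h7]
    exact not_dvd_pow hr h5 (Or.inl rfl)

/-- `Ω₈⁺(2)` -/
theorem sc_o82 {F : Type} [Field F] [Fintype F] (hF : Fintype.card F = 2) :
    Cfsg.Agent.H238.SolCent.SC 2 (Cfsg.POmega F (Cfsg.quadFormPlus 4 F)) := by
  classical
  have hF' : Nat.card F = 2 := by rw [Nat.card_eq_fintype_card, hF]
  have : Fact (Nat.Prime 2) := ⟨Nat.prime_two⟩
  have : CharP F 2 := charP_of_card Nat.prime_two hF'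
  rw [← coe_plusForm]
  refine sc_POmega (good_plus (by omega)) (by simp) (m := 2) ?_
  intro r hr h5
  refine ⟨cast_ne Nat.prime_two (by norm_num) hr h5, ?_, ?_, gl_two_two hF' hr h5, gl_two_two hF' hr h5⟩
  · rw [Nat.card_fun]
    simp
  · intro z z1 z2 hz h1 h2'
    have h3 := Cfsg.Agent.LieClassical.QuadCount.card_plus (F := F) 4 0
    have h4 : Nat.card {v : Fin 4 ⊕ Fin 4 → F // Cfsg.quadFormPlus 4 F v = 0} = z := by
      rw [← hz, ← coe_plusForm]
    rw [h4, if_pos rfl, hF] at h3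
    rw [hF'] at h1 h2'
    norm_num at h1 h2' h3
    have h7 : z2 = 3 ^ 2 := by omega
    rw [h7]
    exact not_dvd_pow hr h5 (Or.inr rfl)

end Cfsg.Agent.H255.SC
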